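import Cfsg.Agent.Lib.FrobeniusComplement
import Mathlib.GroupTheory.FixedPointFree

/-!
Groups all of whose elements outside a normal subgroup `M` act fixed point freely, or have prime
order, on an abelian group.
-/

set_option autoImplicit false
set_option linter.style.haveILetI false

namespace Cfsg.Agent.H73.PPCoset

open Subgroup

/-- A subgroup normalised fixed point freely by a fixed-point-free element of prime order acts
trivially. -/
theorem trivial_of_fpf {X V : Type*} [Group X] [CommGroup V] [Finite V] (φ : X →* MulAut V)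
    (A : Subgroup X) [Finite A] (x : X) {q : ℕ} (hq : q.Prime) (hxq : φ (x ^ q) = 1)
    (hA : ∀ a ∈ A, x * a * x⁻¹ ∈ A)
    (hfix : ∀ i, 0 < i → i < q → ∀ a ∈ A, x ^ i * a * (x ^ i)⁻¹ = a → a = 1)
    (hx : ∀ v, φ x v = v → v = 1) (hcop : (Nat.card A).Coprime (Nat.card V)) :
    ∀ a ∈ A, φ a = 1 := by
  classical
  letI := Fintype.ofFinite A
  intro a₀ ha₀
  refine MulEquiv.ext fun v => ?_
  have hAi : ∀ (i : ℕ) (a : X), a ∈ A → x ^ i * a * (x ^ i)⁻¹ ∈ A := by
    intro i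
    induction i with
    | zero => intro a ha; simpa using ha
    | succ i ih =>
      intro a ha
      have := hA _ (ih a ha)
      convert this using 1
      rw [pow_succ']; group
  have hprodA : ∀ (b : A) (w : V), φ b (∏ a : A, φ a w) = ∏ a : A, φ a w := by
    intro b w
    rw [map_prod]
    refine Fintype.prod_equiv (Equiv.mulLeft b) _ _ fun a => ?_
    rw [Equiv.coe_mulLeft, Subgroup.coe_mul, map_mul, MulAut.mul_apply]
  have horb : ∀ u : V, ∏ i ∈ Finset.range q, φ (x ^ i) u = 1 := by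
    intro u
    refine hx _ ?_
    rw [map_prod]
    have h1 : ∀ i, φ x (φ (x ^ i) u) = φ (x ^ (i + 1)) u := fun i => by
      rw [← MulAut.mul_apply, ← map_mul, ← pow_succ']
    simp only [h1]
    have h2 := Finset.prod_range_succ' (fun i => φ (x ^ i) u) q
    rw [Finset.prod_range_succ, hxq, pow_zero, map_one] at h2
    exact (mul_right_cancel h2).symm
  have hfixed : φ a₀ (v ^ Nat.card A) = v ^ Nat.card A := by
    have key : ∏ i ∈ Finset.range q, ∏ a : A, φ ((a : X) * x ^ i * (a : X)⁻¹) v = 1 := by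
      rw [Finset.prod_comm]
      refine Finset.prod_eq_one fun a _ => ?_
      simp only [map_mul, MulAut.mul_apply]
      rw [← map_prod, horb, map_one]
    obtain ⟨q', rfl⟩ : ∃ q', q = q' + 1 := ⟨q - 1, (Nat.succ_pred_eq_of_pos hq.pos).symm⟩
    rw [Finset.prod_range_succ'] at key
    have h0 : ∏ a : A, φ ((a : X) * x ^ 0 * (a : X)⁻¹) v = v ^ Nat.card A := by
      simp [Nat.card_eq_fintype_card]
    rw [h0] at key
    have hP : φ a₀ (∏ i ∈ Finset.range q', ∏ a : A, φ ((a : X) * x ^ (i + 1) * (a : X)⁻¹) v) =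
        ∏ i ∈ Finset.range q', ∏ a : A, φ ((a : X) * x ^ (i + 1) * (a : X)⁻¹) v := by
      rw [map_prod]
      refine Finset.prod_congr rfl fun i hi => ?_
      let f : A → A := fun a =>
        a * ⟨x ^ (i + 1) * (a : X)⁻¹ * (x ^ (i + 1))⁻¹, hAi _ _ (inv_mem a.2)⟩
      have hf : Function.Injective f := by
        intro a b hab
        have hab' : (a : X) * (x ^ (i + 1) * (a : X)⁻¹ * (x ^ (i + 1))⁻¹) =
            b * (x ^ (i + 1) * (b : X)⁻¹ * (x ^ (i + 1))⁻¹) := congrArg Subtype.val hab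
        have h3 := hfix (i + 1) i.succ_pos (by simpa using hi) _ (mul_mem (inv_mem b.2) a.2) (by
          calc x ^ (i + 1) * ((b : X)⁻¹ * a) * (x ^ (i + 1))⁻¹
              = (b : X)⁻¹ * (b * (x ^ (i + 1) * (b : X)⁻¹ * (x ^ (i + 1))⁻¹)) *
                  (x ^ (i + 1) * a * (x ^ (i + 1))⁻¹) := by group
            _ = (b : X)⁻¹ * a := by rw [← hab']; group)
        exact Subtype.ext (inv_mul_eq_one.1 h3).symm
      have e : ∏ a : A, φ ((a : X) * x ^ (i + 1) * (a : X)⁻¹) v =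
          ∏ a : A, φ a (φ (x ^ (i + 1)) v) := by
        refine Fintype.prod_equiv (Equiv.ofBijective f (Finite.injective_iff_bijective.1 hf)) _ _
          fun a => ?_
        rw [← MulAut.mul_apply, ← map_mul]
        congr 2
        show _ = (a : X) * (x ^ (i + 1) * (a : X)⁻¹ * (x ^ (i + 1))⁻¹) * x ^ (i + 1)
        group
      rw [e]
      exact hprodA ⟨a₀, ha₀⟩ _
    rw [eq_inv_of_mul_eq_one_right key, map_inv, hP]
  show φ a₀ v = v
  apply (powCoprime (G := V) hcop.symm).injective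
  show φ a₀ v ^ Nat.card A = v ^ Nat.card A
  rw [← map_pow, hfixed]

theorem exists_prime_dvd_of_nonsolvable {X : Type*} [Group X] [Finite X] (hX : ¬ Group.IsSolvable X)
    {a b : ℕ} (ha : a.Prime) (hb : b.Prime) :
    ∃ q : ℕ, q.Prime ∧ q ∣ Nat.card X ∧ q ≠ a ∧ q ≠ b := by
  by_contra h
  push Not at h
  apply hX
  obtain ⟨i, m, hm, hcard⟩ := Nat.exists_eq_pow_mul_and_not_dvd (Nat.card_pos (α := X)).ne' a ha.ne_one
  have hm0 : m ≠ 0 := fun e => Nat.card_pos.ne' (by rw [hcard, e, mul_zero])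
  have hmb := Nat.eq_prime_pow_of_unique_prime_dvd (p := b) hm0 fun {d} hd hdm =>
    h d hd (hcard ▸ hdm.mul_left _) (fun e => hm (e ▸ hdm))
  exact Cfsg.Agent.S0144.result a b i _ ha hb (by rw [hcard]; rw [← hmb])

/-- The main consequence of fixed-point-free action outside a normal subgroup. -/
theorem core {H X V : Type*} [Group H] [Finite H] [Group X] [Finite X] [CommGroup V] [Finite V]
    [Nontrivial V] (hX : ¬ Group.IsSolvable X) (ψ : H →* X) (hψ : Function.Surjective ψ)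
    (hpp : ∀ x : H, ψ x ≠ 1 → IsPrimePow (orderOf x)) (φ : H →* MulAut V)
    {r : ℕ} (hr : r.Prime) (hr2 : r ≠ 2) (htriv : ∀ m : H, ψ m = 1 → φ m = 1)
    (hfpf : ∀ x : H, ψ x ≠ 1 → ∀ v : V, φ x v = v → v ≠ 1 → ∃ k : ℕ, orderOf x = r ^ k) :
    Odd (Nat.card X) ∧ ∀ q : ℕ, q.Prime → q ≠ r → ∀ Q : Sylow q X, IsCyclic Q := by
  have hlift : ∀ (q : ℕ), q.Prime → ∀ x : H, orderOf (ψ x) = q → ∃ k : ℕ, orderOf x = q ^ k := by
    intro q hq x hx
    obtain ⟨s, k, hs, -, hsk⟩ := (isPrimePow_nat_iff _).1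
      (hpp x fun e => hq.ne_one (by rw [← hx, e, orderOf_one]))
    have := orderOf_map_dvd ψ x
    rw [hx, ← hsk] at this
    exact ⟨k, ((Nat.prime_dvd_prime_iff_eq hq hs).1 (hq.dvd_of_dvd_pow this)) ▸ hsk.symm⟩
  have hfix : ∀ (q : ℕ) (x : H), q.Prime → q ≠ r → ψ x ≠ 1 → (∃ k : ℕ, orderOf x = q ^ k) →
      ∀ v : V, φ x v = v → v = 1 := by
    rintro q x hq hqr hx ⟨k, hk⟩ v hv
    by_contra hv1
    obtain ⟨l, hl⟩ := hfpf x hx v hv hv1
    apply hx
    rw [orderOf_eq_one_iff.1 (show orderOf x = 1 from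
      Nat.eq_one_of_dvd_coprimes (Nat.coprime_pow_primes k l hq hr hqr) hk.dvd hl.dvd), map_one]
  obtain ⟨v₀, hv₀⟩ := exists_ne (1 : V)
  have hodd : Odd (Nat.card X) := by
    refine Nat.not_even_iff_odd.1 fun heven => ?_
    haveI : Fact (Nat.Prime 2) := ⟨Nat.prime_two⟩
    obtain ⟨q, hq, hqd, hqr, hq2⟩ := exists_prime_dvd_of_nonsolvable hX hr Nat.prime_two
    haveI : Fact q.Prime := ⟨hq⟩
    obtain ⟨x', hx'⟩ := exists_prime_orderOf_dvd_card' q hqd
    obtain ⟨x, rfl⟩ := hψ x'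
    obtain ⟨j, hxo⟩ := hlift q hq x hx'
    have hx1 : ψ x ≠ 1 := fun e => hq.ne_one (by rw [← hx', e, orderOf_one])
    have hφx : φ x ≠ 1 := fun e => hv₀ (hfix q x hq hqr hx1 ⟨j, hxo⟩ v₀ (by rw [e]; rfl))
    obtain ⟨t', ht'⟩ := exists_prime_orderOf_dvd_card' 2 (even_iff_two_dvd.1 heven)
    obtain ⟨t, rfl⟩ := hψ t'
    obtain ⟨i, hto⟩ := hlift 2 Nat.prime_two t ht'
    have ht1 : ψ t ≠ 1 := fun e => Nat.prime_two.ne_one (by rw [← ht', e, orderOf_one])
    have ht2 : ∀ v, φ t (φ t v) = v := fun v => by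
      rw [← MulAut.mul_apply, ← map_mul, htriv (t * t) (by rw [map_mul, ← pow_two, ← ht', pow_orderOf_eq_one])]
      rfl
    have htinv : ∀ v, φ t v = v⁻¹ := fun v => congrFun
      (MonoidHom.FixedPointFree.coe_eq_inv_of_involutive (φ := (φ t).toMonoidHom)
        (fun v hv => hfix 2 t Nat.prime_two (Ne.symm hr2) ht1 ⟨i, hto⟩ v hv) ht2) v
    have hcomm : Commute (φ t) (φ x) := MulEquiv.ext fun v => by
      rw [MulAut.mul_apply, MulAut.mul_apply, htinv, htinv, map_inv]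
    have hy : ψ (t * x) ≠ 1 := by
      intro e
      have h1 := htriv _ e
      rw [map_mul] at h1
      have h2 : φ x ^ 2 = 1 := by
        rw [eq_inv_of_mul_eq_one_right h1, inv_pow, inv_eq_one, pow_two]
        exact MulEquiv.ext fun v => ht2 v
      have h3 : φ x ^ q ^ j = 1 := by rw [← map_pow, ← hxo, pow_orderOf_eq_one, map_one]
      have h4 := pow_gcd_eq_one.2 ⟨h2, h3⟩
      rw [(((Nat.coprime_primes Nat.prime_two hq).2 hq2.symm).pow_right j).gcd_eq_one, pow_one] at h4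
      exact hφx h4
    obtain ⟨s, k, hs, -, hsk⟩ := (isPrimePow_nat_iff _).1 (hpp _ hy)
    have h1 : φ t ^ s ^ k * φ x ^ s ^ k = 1 := by
      rw [← hcomm.mul_pow, ← map_mul, ← map_pow, hsk, pow_orderOf_eq_one, map_one]
    have ht22 : φ t ^ 2 = 1 := by rw [pow_two]; exact MulEquiv.ext ht2
    have h3 : φ x ^ q ^ j = 1 := by rw [← map_pow, ← hxo, pow_orderOf_eq_one, map_one]
    have h2 : φ x ^ (2 * s ^ k) = 1 := by
      rw [mul_comm, pow_mul, eq_inv_of_mul_eq_one_right h1, inv_pow, inv_eq_one, ← pow_mul,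
        mul_comm, pow_mul, ht22, one_pow]
    by_cases hsq : s = q
    · subst hsq
      obtain ⟨m, hm⟩ := ((hs.odd_of_ne_two hq2).pow : Odd (s ^ k))
      have ht : φ t ^ s ^ k = φ t := by rw [hm, pow_succ, pow_mul, ht22, one_pow, one_mul]
      rw [ht] at h1
      have h5 : φ x ^ s ^ k = (φ t)⁻¹ := eq_inv_of_mul_eq_one_right h1
      have h6 : (φ t)⁻¹ ^ s ^ j = 1 := by
        rw [← h5, ← pow_mul, mul_comm, pow_mul, h3, one_pow]
      obtain ⟨m', hm'⟩ := ((hs.odd_of_ne_two hq2).pow : Odd (s ^ j))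
      rw [inv_pow, inv_eq_one, hm', pow_succ, pow_mul, ht22, one_pow, one_mul] at h6
      exact hv₀ (hfix 2 t Nat.prime_two (Ne.symm hr2) ht1 ⟨i, hto⟩ v₀ (by rw [h6]; rfl))
    · have h4 := pow_gcd_eq_one.2 ⟨h2, h3⟩
      have hco : (2 * s ^ k).Coprime (q ^ j) :=
        (((Nat.coprime_primes Nat.prime_two hq).2 hq2.symm).mul_left
          (((Nat.coprime_primes hs hq).2 hsq).pow_left k)).pow_right j
      rw [hco.gcd_eq_one, pow_one] at h4
      exact hφx h4
  refine ⟨hodd, fun q hq hqr Q => ?_⟩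
  haveI : Fact q.Prime := ⟨hq⟩
  by_cases hq2 : q = 2
  · obtain ⟨k, hk⟩ := IsPGroup.iff_card.1 Q.isPGroup'
    rcases k with _ | k
    · haveI : Subsingleton Q := (Nat.card_eq_one_iff_unique.1 (by simpa using hk)).1
      infer_instance
    · exfalso
      have h2 : 2 ∣ Nat.card X := by
        refine dvd_trans ?_ (card_subgroup_dvd_card (Q : Subgroup X))
        rw [hk, hq2]
        exact dvd_pow_self 2 k.succ_ne_zero
      exact Nat.not_even_iff_odd.2 hodd (even_iff_two_dvd.2 h2)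
  let P : Sylow q H := default
  suffices hc : IsCyclic (P.mapSurjective hψ : Subgroup X) from
    isCyclic_of_surjective _ ((P.mapSurjective hψ).equiv Q).surjective
  set A : Subgroup (MulAut V) := (P : Subgroup H).map φ with hA
  have hAp : IsPGroup q A := P.isPGroup'.map φ
  let L := SemidirectProduct V A A.subtype
  let e : V × A → L := fun p => ⟨p.1, p.2⟩
  haveI : Finite L := Finite.of_surjective e fun l => ⟨(l.left, l.right), rfl⟩
  set K : Subgroup L := (SemidirectProduct.inl : V →* L).range with hK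
  haveI hKn : K.Normal := by
    rw [hK, SemidirectProduct.range_inl_eq_ker_rightHom]; infer_instance
  set C : Subgroup L := (SemidirectProduct.inr : A →* L).range with hC
  have hK1 : K ≠ ⊥ := fun e0 => hv₀ (SemidirectProduct.inl_injective (φ := A.subtype)
    ((Subgroup.mem_bot.1 (e0 ▸ MonoidHom.mem_range.2 ⟨v₀, rfl⟩ : (SemidirectProduct.inl v₀ : L) ∈ (⊥ : Subgroup L))).trans
      (map_one _).symm))
  have hfp : ∀ c ∈ C, c ≠ 1 → K ⊓ centralizer {c} = ⊥ := by
    rintro _ ⟨⟨a, y, hy, rfl⟩, rfl⟩ hc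
    rw [eq_bot_iff]
    rintro _ ⟨⟨v, rfl⟩, hv⟩
    rw [Subgroup.mem_bot, ← map_one (SemidirectProduct.inl : V →* L)]
    congr 1
    have hy1 : ψ y ≠ 1 := fun e0 => hc (by
      have : (⟨φ y, y, hy, rfl⟩ : A) = 1 := Subtype.ext (htriv y e0)
      rw [this, map_one])
    obtain ⟨k, hk⟩ := P.isPGroup' ⟨y, hy⟩
    obtain ⟨k', -, hk'⟩ := (Nat.dvd_prime_pow hq).1
      (orderOf_dvd_of_pow_eq_one (congrArg Subtype.val hk : y ^ q ^ k = 1))
    refine hfix q y hq hqr hy1 ⟨k', hk'⟩ v ?_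
    apply SemidirectProduct.inl_injective (φ := A.subtype)
    have := SemidirectProduct.inl_aut (φ := A.subtype) (⟨φ y, y, hy, rfl⟩ : A) v
    refine this.trans ?_
    rw [← mem_centralizer_singleton_iff.1 hv, map_inv, mul_inv_cancel_right]
  have hCp : IsPGroup q C :=
    hAp.of_surjective (SemidirectProduct.inr : A →* L).rangeRestrict (MonoidHom.rangeRestrict_surjective _)
  let R : Sylow q C := default
  have htop : (R : Subgroup C) = ⊤ := (R.3 (hCp.to_subgroup ⊤) le_top).symm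
  have hRc : IsCyclic R := by
    rcases FrobeniusCompl.sylow_cyclic_or_quaternion (H := C) (K := K)
      (by rw [normalizer_eq_top]; exact le_top) hK1 hfp R with h | ⟨h, -⟩
    · exact h
    · exact absurd h hq2
  haveI hCc : IsCyclic C := by
    rw [htop] at hRc
    exact isCyclic_of_surjective _ (topEquiv (G := C)).surjective
  haveI hAc : IsCyclic A :=
    isCyclic_of_surjective _ (MonoidHom.ofInjective
      (SemidirectProduct.inr_injective (φ := A.subtype))).symm.surjective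
  obtain ⟨⟨a, g, hg, rfl⟩, hgen⟩ := hAc.exists_generator
  refine ⟨⟨⟨ψ g, g, hg, rfl⟩, fun u => ?_⟩⟩
  obtain ⟨_, y, hy, rfl⟩ := u
  obtain ⟨i, hi⟩ := mem_zpowers_iff.1 (hgen ⟨φ y, y, hy, rfl⟩)
  refine mem_zpowers_iff.2 ⟨i, Subtype.ext ?_⟩
  show ψ g ^ i = ψ y
  have hi' : φ g ^ i = φ y := congrArg Subtype.val hi
  by_contra hne
  have h1 : ψ (y * (g ^ i)⁻¹) ≠ 1 := by
    rw [map_mul, map_inv, map_zpow, Ne, mul_inv_eq_one]
    exact fun e => hne e.symm
  obtain ⟨k, hk⟩ := P.isPGroup' ⟨_, mul_mem hy (inv_mem (Subgroup.zpow_mem _ hg i))⟩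
  obtain ⟨k', -, hk'⟩ := (Nat.dvd_prime_pow hq).1 (orderOf_dvd_of_pow_eq_one
    (congrArg Subtype.val hk : (y * (g ^ i)⁻¹) ^ q ^ k = 1))
  refine hv₀ (hfix q _ hq hqr h1 ⟨k', hk'⟩ v₀ ?_)
  rw [map_mul, map_inv, map_zpow, hi', mul_inv_cancel]
  rfl

end Cfsg.Agent.H73.PPCoset
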