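import Cfsg.Agent.H73.PPCoset.FixedPointFree
import Cfsg.Agent.Modules.Thompson

/-!
Normal subgroups outside which all elements have prime power order.
-/

set_option autoImplicit false
set_option linter.style.haveILetI false

namespace Cfsg.Agent.H73.PPCoset

open Subgroup
open scoped IsMulCommutative

variable {G : Type*} [Group G]

theorem mem_conj_of_mem_normalizer {V : Subgroup G} {g v : G}
    (hg : g ∈ normalizer (V : Set G)) (hv : v ∈ V) : g * v * g⁻¹ ∈ V :=
  (mem_normalizer_iff.1 hg v).1 hv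

/-- Conjugation action of a subgroup of the normaliser. -/
def conjHom {L V : Subgroup G} (h : L ≤ normalizer (V : Set G)) : L →* MulAut V where
  toFun l :=
    { toFun := fun v => ⟨(l : G) * v * (l : G)⁻¹, mem_conj_of_mem_normalizer (h l.2) v.2⟩
      invFun := fun v => ⟨(l : G)⁻¹ * v * ((l : G)⁻¹)⁻¹,
        mem_conj_of_mem_normalizer (inv_mem (h l.2)) v.2⟩
      left_inv := fun v => by ext; simp [mul_assoc]
      right_inv := fun v => by ext; simp [mul_assoc]
      map_mul' := fun v w => by ext; simp [mul_assoc] }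
  map_one' := by ext v; simp
  map_mul' a b := by ext v; simp [mul_assoc]

theorem conjHom_apply {L V : Subgroup G} (h : L ≤ normalizer (V : Set G)) (l : L) (v : V) :
    ((conjHom h l v : V) : G) = (l : G) * v * (l : G)⁻¹ := rfl

/-- A product of commuting elements of coprime non-trivial orders has no prime power order. -/
theorem exists_pow_of_commute [Finite G] {N : Subgroup G}
    (h : ∀ x : G, x ∉ N → IsPrimePow (orderOf x)) {x v : G} (hx : x ∉ N) (hv : v ∈ N) (hv1 : v ≠ 1)
    {r : ℕ} (hr : r.Prime) (hvr : ∃ b : ℕ, orderOf v = r ^ b) (hc : Commute x v) :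
    ∃ k : ℕ, orderOf x = r ^ k := by
  obtain ⟨q, k, hq, hk0, hk⟩ := (isPrimePow_nat_iff _).1 (h x hx)
  by_cases hqr : q = r
  · exact ⟨k, hqr ▸ hk.symm⟩
  exfalso
  obtain ⟨b, hb⟩ := hvr
  have hb0 : b ≠ 0 := fun e => hv1 (orderOf_eq_one_iff.1 (by rw [hb, e, pow_zero]))
  have ho : orderOf (x * v) = q ^ k * r ^ b := by
    rw [hc.orderOf_mul_eq_mul_orderOf_of_coprime
      (by rw [← hk, hb]; exact Nat.coprime_pow_primes k b hq hr hqr), hk, hb]
  obtain ⟨s, n, hs, -, hn⟩ := (isPrimePow_nat_iff _).1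
    (h (x * v) fun e => hx ((mul_mem_cancel_right hv).1 e))
  rw [ho] at hn
  have h1 : q ∣ s ^ n := hn ▸ (dvd_pow_self q hk0.ne').mul_right _
  have h2 : r ∣ s ^ n := hn ▸ (dvd_pow_self r hb0).mul_left _
  exact hqr (((Nat.prime_dvd_prime_iff_eq hq hs).1 (hq.dvd_of_dvd_pow h1)).trans
    ((Nat.prime_dvd_prime_iff_eq hr hs).1 (hr.dvd_of_dvd_pow h2)).symm)

theorem eq_top_of_sylow_le {M : Type*} [Group M] [Finite M] {K : Subgroup M}
    (h : ∀ s : ℕ, s.Prime → ∀ S : Sylow s M, (S : Subgroup M) ≤ K) : K = ⊤ := by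
  refine eq_top_of_card_eq _ (Nat.dvd_antisymm (card_subgroup_dvd_card K) ?_)
  rw [Nat.dvd_iff_prime_pow_dvd_dvd]
  intro s k hs hk
  haveI : Fact s.Prime := ⟨hs⟩
  let S : Sylow s M := default
  have h1 : s ^ k ∣ Nat.card S := by
    rw [S.card_eq_multiplicity]
    exact pow_dvd_pow s ((hs.pow_dvd_iff_le_factorization Nat.card_pos.ne').1 hk)
  exact h1.trans (card_dvd_of_le (h s hs S))

/-- For every odd prime `r` dividing `|N|` the Sylow subgroups of `G/N` for primes other than `r`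
are cyclic. -/
theorem sylow_cyclic [Finite G] {N : Subgroup G} [N.Normal]
    (h : ∀ x : G, x ∉ N → IsPrimePow (orderOf x)) (hX : ¬ Group.IsSolvable (G ⧸ N))
    {r : ℕ} (hr : r.Prime) (hr2 : r ≠ 2) (hrN : r ∣ Nat.card N) :
    ∀ q : ℕ, q.Prime → q ≠ r → ∀ Q : Sylow q (G ⧸ N), IsCyclic Q := by
  haveI : Fact r.Prime := ⟨hr⟩
  let R : Sylow r N := default
  set Rg := (R : Subgroup N).map N.subtype with hRg
  obtain ⟨H, ⟨hHL, hHN⟩, hmin⟩ := exists_minimal_of_wellFoundedLT
    (fun H : Subgroup G => H ≤ normalizer (Rg : Set G) ∧ H ⊔ N = ⊤)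
    ⟨normalizer (Rg : Set G), le_rfl, R.normalizer_sup_eq_top⟩
  set ψ : H →* G ⧸ N := (QuotientGroup.mk' N).comp H.subtype with hψdef
  have hker : ∀ x : H, ψ x = 1 ↔ (x : G) ∈ N := fun x => QuotientGroup.eq_one_iff (x : G)
  have hψ : Function.Surjective ψ := by
    intro u
    obtain ⟨g, rfl⟩ := QuotientGroup.mk'_surjective N u
    obtain ⟨a, ha, b, hb, rfl⟩ := mem_sup_of_normal_right.1 (hHN ▸ mem_top g : g ∈ H ⊔ N)
    refine ⟨⟨a, ha⟩, ?_⟩
    rw [map_mul, show QuotientGroup.mk' N b = 1 from (QuotientGroup.eq_one_iff b).2 hb, mul_one]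
    rfl
  have hpp : ∀ x : H, ψ x ≠ 1 → IsPrimePow (orderOf x) := fun x hx => by
    rw [← orderOf_coe]; exact h x fun e => hx ((hker x).2 e)
  set M := ψ.ker with hMdef
  haveI hMnil : Group.IsNilpotent M := by
    have hle : M ≤ frattini H := by
      refine le_iInf₂ fun C hC => ?_
      by_contra hMC
      have htop : C ⊔ M = ⊤ := hC.2 _ (left_lt_sup.2 hMC)
      have hHle : H ≤ C.map H.subtype ⊔ N := by
        intro g hg
        obtain ⟨c, hc, m, hm, e⟩ := mem_sup_of_normal_right.1 (htop ▸ mem_top (⟨g, hg⟩ : H))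
        rw [show g = (c : G) * m from (congrArg Subtype.val e).symm]
        exact mul_mem (mem_sup_left (mem_map_of_mem _ hc)) (mem_sup_right ((hker m).1 hm))
      have h1 : H ≤ C.map H.subtype := hmin
        ⟨(map_subtype_le C).trans hHL, top_le_iff.1 (hHN.ge.trans (sup_le hHle le_sup_right))⟩
        (map_subtype_le C)
      exact hC.1 (eq_top_iff.2 fun c _ => by
        obtain ⟨c', hc', e⟩ := h1 c.2
        exact Subtype.ext e ▸ hc')
    haveI := frattini_nilpotent (G := H)
    exact Group.nilpotent_of_mulEquiv (subgroupOfEquivOfLe hle)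
  have hxN : ∀ x : H, ψ x ≠ 1 → (x : G) ∉ N := fun x hx e => hx ((hker x).2 e)
  -- the abelian groups on which we act
  have caseP : ∀ p : ℕ, p.Prime → p ≠ 2 → p ∣ Nat.card M →
      Odd (Nat.card (G ⧸ N)) ∧ ∀ q : ℕ, q.Prime → q ≠ p → ∀ Q : Sylow q (G ⧸ N), IsCyclic Q := by
    intro p hp hp2 hpd
    haveI : Fact p.Prime := ⟨hp⟩
    let S : Sylow p M := default
    haveI hSc : (S : Subgroup M).Characteristic := S.characteristic_of_normal inferInstance
    set S' := (S : Subgroup M).map M.subtype with hS'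
    haveI : S'.Normal := ConjAct.normal_of_characteristic_of_normal
    set V := S' ⊓ centralizer (S' : Set H) with hV
    haveI : V.Normal := inferInstanceAs (S' ⊓ centralizer (S' : Set H)).Normal
    have hS'p : IsPGroup p S' := S.isPGroup'.map _
    have hV1 : V ≠ ⊥ := Modules.inf_centralizer_ne_bot hS'p (by
      rw [hS', Ne, map_eq_bot_iff_of_injective _ M.subtype_injective]
      exact S.ne_bot_of_dvd_card hpd)
    haveI : Nontrivial V := V.bot_or_nontrivial.resolve_left hV1
    haveI : IsMulCommutative V := ⟨⟨fun a b => Subtype.ext (mem_centralizer_iff.1 b.2.2 a a.2.1)⟩⟩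
    let φ : H →* MulAut V := MulAut.conjNormal
    refine core hX ψ hψ hpp φ hp hp2 ?_ fun x hx v hv hv1 => ?_
    · have hK : φ.ker.comap M.subtype = ⊤ := by
        refine eq_top_of_sylow_le fun s hs T t ht => ?_
        refine MulEquiv.ext fun v => Subtype.ext ?_
        show (t : H) * v * (t : H)⁻¹ = v
        rw [mul_inv_eq_iff_eq_mul]
        by_cases hsp : s = p
        · subst hsp
          haveI : (S : Subgroup M).Normal := inferInstance
          haveI := Sylow.unique_of_normal S inferInstance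
          rw [Subsingleton.elim T S] at ht
          exact mem_centralizer_iff.1 v.2.2 t (mem_map_of_mem _ ht)
        · haveI : Fact s.Prime := ⟨hs⟩
          obtain ⟨u, hu, e⟩ := v.2.1
          rw [← e]
          exact congrArg Subtype.val (Subgroup.commute_of_normal_of_disjoint _ _
            (inferInstance : (T : Subgroup M).Normal) (inferInstance : (S : Subgroup M).Normal)
            (IsPGroup.disjoint_of_ne s p hsp _ _ T.isPGroup' S.isPGroup') t u ht hu).eq
      intro m hm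
      exact (hK ▸ mem_top (⟨m, hm⟩ : M) : (⟨m, hm⟩ : M) ∈ φ.ker.comap M.subtype)
    · obtain ⟨b, hb⟩ := hS'p ⟨(v : H), v.2.1⟩
      obtain ⟨b', -, hb'⟩ := (Nat.dvd_prime_pow hp).1
        (orderOf_dvd_of_pow_eq_one (congrArg Subtype.val hb : (v : H) ^ p ^ b = 1))
      have hvN : ((v : H) : G) ∈ N := by
        obtain ⟨u, -, e⟩ := v.2.1
        rw [← e]; exact (hker _).1 u.2
      obtain ⟨k, hk⟩ := exists_pow_of_commute h (hxN x hx) hvN
        (fun e => hv1 (Subtype.ext (Subtype.ext e))) hp ⟨b', by rw [orderOf_coe]; exact hb'⟩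
        (show ((x : H) : G) * (v : H) = (v : H) * (x : H) from congrArg Subtype.val
          (mul_inv_eq_iff_eq_mul.1 (congrArg Subtype.val hv : x * (v : H) * x⁻¹ = v)))
      exact ⟨k, by rw [← orderOf_coe]; exact hk⟩
  intro q hq hqr Q
  by_cases hP : ∃ p : ℕ, p.Prime ∧ p ≠ 2 ∧ p ∣ Nat.card M ∧ p ≠ q
  · obtain ⟨p, hp, hp2, hpd, hpq⟩ := hP
    exact (caseP p hp hp2 hpd).2 q hq hpq.symm Q
  push Not at hP
  set W := Rg ⊓ centralizer (Rg : Set G) with hW
  have hRp : IsPGroup r Rg := R.isPGroup'.map _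
  have hW1 : W ≠ ⊥ := Modules.inf_centralizer_ne_bot hRp (by
    rw [hRg, Ne, map_eq_bot_iff_of_injective _ N.subtype_injective]
    exact R.ne_bot_of_dvd_card hrN)
  haveI : Nontrivial W := W.bot_or_nontrivial.resolve_left hW1
  haveI : IsMulCommutative W := ⟨⟨fun a b => Subtype.ext (mem_centralizer_iff.1 b.2.2 a a.2.1)⟩⟩
  have hHW : H ≤ normalizer (W : Set G) := by
    intro g hg
    have key : ∀ g ∈ normalizer (Rg : Set G), ∀ v ∈ W, g * v * g⁻¹ ∈ W := by
      intro g hg v hv
      refine ⟨(mem_normalizer_iff.1 hg v).1 hv.1, mem_centralizer_iff.2 fun a ha => ?_⟩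
      have h1 := mem_centralizer_iff.1 hv.2 (g⁻¹ * a * g) (by
        have := (mem_normalizer_iff.1 (inv_mem hg) a).1 ha
        simpa using this)
      calc a * (g * v * g⁻¹) = g * ((g⁻¹ * a * g) * v) * g⁻¹ := by group
        _ = g * (v * (g⁻¹ * a * g)) * g⁻¹ := by rw [h1]
        _ = g * v * g⁻¹ * a := by group
    rw [mem_normalizer_iff]
    intro v
    refine ⟨key g (hHL hg) v, fun hv => ?_⟩
    have := key g⁻¹ (inv_mem (hHL hg)) _ hv
    simpa [mul_assoc] using this
  have hfpfW : ∀ x : H, ψ x ≠ 1 → ∀ v : W, conjHom hHW x v = v → v ≠ 1 →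
      ∃ k : ℕ, orderOf x = r ^ k := by
    intro x hx v hv hv1
    obtain ⟨b, hb⟩ := hRp ⟨(v : G), v.2.1⟩
    obtain ⟨b', -, hb'⟩ := (Nat.dvd_prime_pow hr).1
      (orderOf_dvd_of_pow_eq_one (congrArg Subtype.val hb : (v : G) ^ r ^ b = 1))
    obtain ⟨k, hk⟩ := exists_pow_of_commute h (hxN x hx) (map_subtype_le _ v.2.1)
      (fun e => hv1 (Subtype.ext e)) hr ⟨b', hb'⟩
      (mul_inv_eq_iff_eq_mul.1 (congrArg Subtype.val hv : (x : G) * v * (x : G)⁻¹ = v))
    exact ⟨k, by rw [← orderOf_coe]; exact hk⟩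
  refine (core hX ψ hψ hpp (conjHom hHW) hr hr2 (fun m hm => ?_) hfpfW).2 q hq hqr Q
  -- the kernel acts trivially
  have hK : (conjHom hHW).ker.comap M.subtype = ⊤ := by
    refine eq_top_of_sylow_le fun s hs T => ?_
    haveI : Fact s.Prime := ⟨hs⟩
    by_cases hsr : s = r
    · subst hsr
      intro t ht
      refine MulEquiv.ext fun w => Subtype.ext ?_
      show ((t : H) : G) * w * ((t : H) : G)⁻¹ = w
      rw [mul_inv_eq_iff_eq_mul]
      have htN : ((t : H) : G) ∈ N := (hker _).1 t.2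
      let f : M →* N := (H.subtype.comp M.subtype).codRestrict N fun m => (hker _).1 m.2
      have h1 : f t ∈ ((T : Subgroup M).map f) ⊓ normalizer (R : Set N) := by
        refine ⟨mem_map_of_mem _ ht, mem_normalizer_iff.2 fun u => ?_⟩
        have := mem_normalizer_iff.1 (hHL (t : H).2) (u : G)
        rw [hRg] at this
        rw [← mem_map_iff_mem N.subtype_injective (K := (R : Subgroup N)),
          ← mem_map_iff_mem N.subtype_injective (K := (R : Subgroup N)) (x := f t * u * (f t)⁻¹)]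
        exact this
      rw [(T.isPGroup'.map f).inf_normalizer_sylow R] at h1
      exact mem_centralizer_iff.1 w.2.2 _ (mem_map_of_mem N.subtype h1.2)
    by_cases hTtriv : (T : Subgroup M) = ⊥
    · rw [hTtriv]; exact bot_le
    have hsM : s ∣ Nat.card M := by
      obtain ⟨n, hn⟩ := IsPGroup.iff_card.1 T.isPGroup'
      rcases n with _ | n
      · exact absurd (card_eq_one.1 (by simpa using hn)) hTtriv
      · exact (show s ∣ Nat.card T by rw [hn]; exact dvd_pow_self s n.succ_ne_zero).trans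
          (card_subgroup_dvd_card _)
    obtain ⟨p, hp, hpX, hpr, hpM⟩ : ∃ p : ℕ, p.Prime ∧ p ∣ Nat.card (G ⧸ N) ∧ p ≠ r ∧
        ¬ p ∣ Nat.card M := by
      by_cases hex : ∃ p : ℕ, p.Prime ∧ p ≠ 2 ∧ p ∣ Nat.card M
      · obtain ⟨p₀, hp₀, hp₀2, hp₀d⟩ := hex
        have hodd := (caseP p₀ hp₀ hp₀2 hp₀d).1
        obtain ⟨p, hp, hpX, hp1, hp2'⟩ := exists_prime_dvd_of_nonsolvable hX hr hp₀
        have hp2 : p ≠ 2 := by
          rintro rfl
          exact Nat.not_even_iff_odd.2 hodd (even_iff_two_dvd.2 hpX)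
        exact ⟨p, hp, hpX, hp1,
          fun e => hp2' ((hP p hp hp2 e).trans (hP p₀ hp₀ hp₀2 hp₀d).symm)⟩
      · push Not at hex
        obtain ⟨p, hp, hpX, hp1, hp2⟩ := exists_prime_dvd_of_nonsolvable hX hr Nat.prime_two
        exact ⟨p, hp, hpX, hp1, fun e => hex p hp hp2 e⟩
    haveI : Fact p.Prime := ⟨hp⟩
    have hps : p ≠ s := fun e => hpM (e ▸ hsM)
    have hMX : Nat.card H = Nat.card (G ⧸ N) * Nat.card M := by
      rw [Subgroup.card_eq_card_quotient_mul_card_subgroup M,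
        Nat.card_congr (QuotientGroup.quotientKerEquivOfSurjective ψ hψ).toEquiv]
    obtain ⟨x, hxo⟩ := exists_prime_orderOf_dvd_card' (G := H) p (hMX ▸ hpX.mul_right _)
    have hpow : ∀ i, 0 < i → i < p → orderOf (x ^ i) = p ∧ ψ (x ^ i) ≠ 1 := by
      intro i hi0 hip
      have ho : orderOf (x ^ i) = p := by
        rw [(Nat.Coprime.orderOf_pow (by
          rw [hxo]; exact hp.coprime_iff_not_dvd.2 (Nat.not_dvd_of_pos_of_lt hi0 hip))), hxo]
      exact ⟨ho, fun e => hpM (ho ▸ (orderOf_coe (⟨x ^ i, e⟩ : M)).symm ▸ orderOf_dvd_natCard _)⟩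
    have hx1 := hpow 1 Nat.one_pos hp.one_lt
    rw [pow_one] at hx1
    haveI hTc : (T : Subgroup M).Characteristic := T.characteristic_of_normal inferInstance
    haveI : ((T : Subgroup M).map M.subtype).Normal := ConjAct.normal_of_characteristic_of_normal
    have hWp : IsPGroup r W := hRp.to_le inf_le_left
    have hcop : (Nat.card ((T : Subgroup M).map M.subtype)).Coprime (Nat.card W) :=
      by
      obtain ⟨a, ha⟩ := IsPGroup.iff_card.1 (T.isPGroup'.map M.subtype)
      obtain ⟨b, hb⟩ := IsPGroup.iff_card.1 hWp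
      rw [ha, hb]
      exact Nat.coprime_pow_primes a b hs hr hsr
    intro t ht
    refine trivial_of_fpf (conjHom hHW) ((T : Subgroup M).map M.subtype) x hp
      (by rw [← hxo, pow_orderOf_eq_one, map_one])
      (fun a ha => (inferInstance : ((T : Subgroup M).map M.subtype).Normal).conj_mem a ha x)
      (fun i hi0 hip a ha hfx => ?_) (fun w hw => ?_) hcop _ (mem_map_of_mem _ ht)
    · by_contra ha1
      obtain ⟨n, hn⟩ := (T.isPGroup'.map M.subtype) ⟨a, ha⟩
      obtain ⟨n', -, hn'⟩ := (Nat.dvd_prime_pow hs).1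
        (orderOf_dvd_of_pow_eq_one (congrArg Subtype.val hn : a ^ s ^ n = 1))
      have haN : (a : G) ∈ N := by
        obtain ⟨u, -, e⟩ := ha
        rw [← e]; exact (hker _).1 u.2
      obtain ⟨k, hk⟩ := exists_pow_of_commute h (hxN _ (hpow i hi0 hip).2) haN
        (fun e => ha1 (Subtype.ext e)) hs ⟨n', by rw [orderOf_coe]; exact hn'⟩
        (congrArg Subtype.val (mul_inv_eq_iff_eq_mul.1 hfx))
      rw [orderOf_coe, (hpow i hi0 hip).1] at hk
      exact hps ((Nat.prime_dvd_prime_iff_eq hp hs).1 (hp.dvd_of_dvd_pow hk.dvd))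
    · by_contra hw1
      obtain ⟨k, hk⟩ := hfpfW x hx1.2 w hw hw1
      rw [hx1.1] at hk
      exact hpr ((Nat.prime_dvd_prime_iff_eq hp hr).1 (hp.dvd_of_dvd_pow hk.dvd))
  exact (hK ▸ mem_top (⟨m, hm⟩ : M) : (⟨m, hm⟩ : M) ∈ (conjHom hHW).ker.comap M.subtype)

end Cfsg.Agent.H73.PPCoset
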